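import Mathlib
import Cfsg.Agent.Lib.Helper73.TwoClass

set_option autoImplicit false

namespace Cfsg.Agent.Lib.Helper24.Itn

/-- the relative `F`-property: no proper containments between `G`-centralizers of elements of `N`
that are not central in `G` -/
def FRel {G : Type*} [Group G] (N : Subgroup G) : Prop :=
  ∀ a b : G, a ∈ N → b ∈ N → b ∉ Subgroup.center G →
    Subgroup.centralizer ({a} : Set G) ≤ Subgroup.centralizer ({b} : Set G) →
    Subgroup.centralizer ({b} : Set G) ≤ Subgroup.centralizer ({a} : Set G)

end Cfsg.Agent.Lib.Helper24.Itn
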