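import Mathlib
import Cfsg.Agent.Lib.Helper73.TwoClass
import Cfsg.Agent.Lib.Helper24.Itn.Defs

set_option autoImplicit false

namespace Cfsg.Agent.Lib.Helper24.Itn

open Cfsg.Agent.Lib.Helper73 Cfsg.Agent.Lib.Helper77 Cfsg.Agent.Lib.Helper58 Cfsg.Agent.Lib.Helper31

local notation "Cn" x => Subgroup.centralizer ({x} : Set _)

/-- Partition argument for a Frobenius-like group `Q ⋊ ⟨x⟩` of automorphisms of an abelian group,
modulo a subgroup `V₀` containing all the relevant fixed points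
(after `Cfsg.Agent.Lib.Helper64.frob_core`). -/
theorem frob_core_mod {A : Type*} [CommGroup A] (V₀ : Subgroup A)
    (Q : Subgroup (MulAut A)) [Finite Q] (x : MulAut A) (r : ℕ) (hx : x ^ r = 1) (hr : 0 < r)
    (hxQ : ∀ c ∈ Q, x * c * x⁻¹ ∈ Q)
    (h1 : ∀ w : A, (∀ c ∈ Q, c w = w) → w ∈ V₀)
    (h2 : ∀ c ∈ Q, ∀ w : A, (c * x * c⁻¹) w = w → w ∈ V₀)
    (h3 : ∀ c ∈ Q, ∀ i, 0 < i → i < r → c * x ^ i = x ^ i * c → c = 1) (v : A) :
    v ^ (Nat.card Q) ∈ V₀ := by
  classical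
  have : Fintype Q := Fintype.ofFinite Q
  have hT : ∀ w : A, ∏ c : Q, (c : MulAut A) w ∈ V₀ := by
    intro w
    apply h1
    intro d hd
    rw [map_prod]
    refine Fintype.prod_equiv (Equiv.mulLeft (⟨d, hd⟩ : Q)) _ _ ?_
    intro c
    simp [MulAut.mul_apply]
  have hS : ∀ c ∈ Q, ∀ w : A, ∏ i ∈ Finset.range r, ((c * x * c⁻¹) ^ i) w ∈ V₀ := by
    intro c hc w
    apply h2 c hc
    rw [map_prod]
    have hy : (c * x * c⁻¹) ^ r = 1 := by rw [conj_pow, hx]; simp
    have e1 : ∀ i, (c * x * c⁻¹) (((c * x * c⁻¹) ^ i) w) = ((c * x * c⁻¹) ^ (i + 1)) w := by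
      intro i
      rw [pow_succ']; rfl
    simp only [e1]
    have e2 := Finset.prod_range_succ (fun i => ((c * x * c⁻¹) ^ i) w) r
    have e3 := Finset.prod_range_succ' (fun i => ((c * x * c⁻¹) ^ i) w) r
    rw [e2] at e3
    simp only [hy, pow_zero, MulAut.one_apply] at e3
    exact (mul_right_cancel e3).symm
  have hxiQ : ∀ i : ℕ, ∀ c ∈ Q, x ^ i * c * (x ^ i)⁻¹ ∈ Q := by
    intro i
    induction i with
    | zero => intro c hc; simpa using hc
    | succ n ih =>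
      intro c hc
      have := hxQ _ (ih c hc)
      have e : x ^ (n + 1) * c * (x ^ (n + 1))⁻¹ = x * (x ^ n * c * (x ^ n)⁻¹) * x⁻¹ := by
        rw [pow_succ']; group
      rw [e]; exact this
  have hD1 : ∏ c : Q, ∏ i ∈ Finset.range r, ((c : MulAut A) * x ^ i * (c : MulAut A)⁻¹) v ∈ V₀ := by
    apply Subgroup.prod_mem
    intro c _
    have := hS c c.2 v
    simp only [conj_pow] at this
    exact this
  rw [Finset.prod_comm] at hD1
  have hi : ∀ i ∈ Finset.range r, i ≠ 0 →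
      ∏ c : Q, ((c : MulAut A) * x ^ i * (c : MulAut A)⁻¹) v ∈ V₀ := by
    intro i hi hi0
    have hir : i < r := Finset.mem_range.mp hi
    let σ : Q → Q := fun c => ⟨(c : MulAut A) * x ^ i * (c : MulAut A)⁻¹ * (x ^ i)⁻¹, by
      have := Q.mul_mem c.2 (hxiQ i _ (Q.inv_mem c.2))
      have e : (c : MulAut A) * x ^ i * (c : MulAut A)⁻¹ * (x ^ i)⁻¹ =
          (c : MulAut A) * (x ^ i * (c : MulAut A)⁻¹ * (x ^ i)⁻¹) := by
        group
      rw [e]; exact this⟩
    have hσinj : Function.Injective σ := by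
      intro c d hcd
      have h : (c : MulAut A) * x ^ i * (c : MulAut A)⁻¹ * (x ^ i)⁻¹ =
          (d : MulAut A) * x ^ i * (d : MulAut A)⁻¹ * (x ^ i)⁻¹ :=
        congrArg Subtype.val hcd
      have h' : (c : MulAut A) * x ^ i * (c : MulAut A)⁻¹ = (d : MulAut A) * x ^ i * (d : MulAut A)⁻¹ :=
        mul_right_cancel h
      have h4 : ((d : MulAut A)⁻¹ * c) * x ^ i = x ^ i * ((d : MulAut A)⁻¹ * c) := by
        have : (d : MulAut A)⁻¹ * ((c : MulAut A) * x ^ i * (c : MulAut A)⁻¹) * c =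
            (d : MulAut A)⁻¹ * ((d : MulAut A) * x ^ i * (d : MulAut A)⁻¹) * c := by
          rw [h']
        calc ((d : MulAut A)⁻¹ * c) * x ^ i
            = (d : MulAut A)⁻¹ * ((c : MulAut A) * x ^ i * (c : MulAut A)⁻¹) * c := by group
          _ = (d : MulAut A)⁻¹ * ((d : MulAut A) * x ^ i * (d : MulAut A)⁻¹) * c := this
          _ = x ^ i * ((d : MulAut A)⁻¹ * c) := by group
      have h5 := h3 _ (Q.mul_mem (Q.inv_mem d.2) c.2) i (Nat.pos_of_ne_zero hi0) hir h4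
      apply Subtype.ext
      have : (c : MulAut A) = d := by
        have := congrArg (fun z => (d : MulAut A) * z) h5
        simpa using this
      exact this
    have hσbij : Function.Bijective σ := Finite.injective_iff_bijective.mp hσinj
    have e1 : ∀ c : Q, ((c : MulAut A) * x ^ i * (c : MulAut A)⁻¹) v =
        ((σ c : Q) : MulAut A) ((x ^ i) v) := by
      intro c
      rw [← MulAut.mul_apply]
      congr 1
      simp [σ]
    simp only [e1]
    rw [Function.Bijective.prod_comp hσbij (fun c : Q => (c : MulAut A) ((x ^ i) v))]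
    exact hT _
  rw [← Finset.mul_prod_erase _ _ (Finset.mem_range.mpr hr)] at hD1
  have hrest : ∏ i ∈ (Finset.range r).erase 0,
      ∏ c : Q, ((c : MulAut A) * x ^ i * (c : MulAut A)⁻¹) v ∈ V₀ := by
    apply Subgroup.prod_mem
    intro i hi'
    exact hi i (Finset.mem_of_mem_erase hi') (Finset.ne_of_mem_erase hi')
  have h0 := (Subgroup.mul_mem_cancel_right V₀ hrest).mp hD1
  simpa [Finset.prod_const, Nat.card_eq_fintype_card] using h0

/-- FROB -/
theorem frob_norm {V : Type*} [CommGroup V] [Finite V] (V₀ : Subgroup V)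
    (Q : Subgroup (MulAut V)) (τ : MulAut V) (u t : ℕ) (hu : u.Prime)
    (hτu : orderOf τ = u) (hnorm : ∀ ρ ∈ Q, τ * ρ * τ⁻¹ ∈ Q)
    (hfpf : ∀ ρ ∈ Q, τ * ρ * τ⁻¹ = ρ → ρ = 1) (hQne : Q ≠ ⊥)
    (hfix : ∀ ξ ∈ Q ⊔ Subgroup.zpowers τ, ξ ≠ 1 → ∀ v, ξ v = v → v ∈ V₀)
    (hQt : (Nat.card Q).Coprime t)
    (v₁ : V) (hv₁ : v₁ ∉ V₀) (hv₁t : ∃ k : ℕ, v₁ ^ (t ^ k) = 1) : False := by
  classical
  have hτ1 : τ ≠ 1 := by
    intro h
    rw [h, orderOf_one] at hτu
    exact hu.one_lt.ne hτu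
  have hτmem : τ ∈ Q ⊔ Subgroup.zpowers τ := (le_sup_right : _ ≤ Q ⊔ Subgroup.zpowers τ)
    (Subgroup.mem_zpowers τ)
  have hQle : Q ≤ Q ⊔ Subgroup.zpowers τ := le_sup_left
  obtain ⟨⟨σ, hσQ⟩, hσ⟩ := (Subgroup.ne_bot_iff_exists_ne_one).mp hQne
  have hσ1 : σ ≠ 1 := fun h => hσ (Subtype.ext h)
  have key : v₁ ^ (Nat.card Q) ∈ V₀ := by
    apply frob_core_mod V₀ Q τ u (by rw [← hτu]; exact pow_orderOf_eq_one τ) hu.pos hnorm
    · intro w hw
      exact hfix σ (hQle hσQ) hσ1 w (hw σ hσQ)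
    · intro c hc w hw
      refine hfix (c * τ * c⁻¹) ?_ ?_ w hw
      · exact Subgroup.mul_mem _ (Subgroup.mul_mem _ (hQle hc) hτmem) (Subgroup.inv_mem _ (hQle hc))
      · intro h
        apply hτ1
        have : τ = c⁻¹ * (c * τ * c⁻¹) * c := by group
        rw [this, h]; group
    · intro c hc i hi0 hiu hci
      apply hfpf c hc
      -- `τ` is a power of `τ ^ i`
      have hcop : Nat.Coprime i (orderOf τ) := by
        rw [hτu]
        exact (Nat.coprime_of_lt_prime hi0.ne' hiu hu).symm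
      obtain ⟨n, hn⟩ := exists_pow_eq_self_of_coprime hcop
      have hc1 : Commute c (τ ^ i) := hci
      have hc2 : Commute c τ := by
        have := hc1.pow_right n
        rwa [hn] at this
      rw [← hc2.eq]; group
  obtain ⟨k, hk⟩ := hv₁t
  have hcop : Nat.Coprime (Nat.card Q) (orderOf v₁) := by
    exact Nat.Coprime.coprime_dvd_right (orderOf_dvd_of_pow_eq_one hk) (Nat.Coprime.pow_right _ hQt)
  obtain ⟨n, hn⟩ := exists_pow_eq_self_of_coprime hcop
  apply hv₁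
  rw [← hn]
  exact V₀.pow_mem key n

end Cfsg.Agent.Lib.Helper24.Itn
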