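import Mathlib
import Cfsg.Agent.Lib.Helper73.TwoClass
import Cfsg.Agent.Lib.Helper24.Itn.Defs
import Cfsg.Agent.Lib.Helper24.Itn.FROB

set_option autoImplicit false

namespace Cfsg.Agent.Lib.Helper24.Itn

open Cfsg.Agent.Lib.Helper73 Cfsg.Agent.Lib.Helper77 Cfsg.Agent.Lib.Helper58 Cfsg.Agent.Lib.Helper31

local notation "Cn" x => Subgroup.centralizer ({x} : Set _)

/-- LX -/
theorem semireg_two_primes {V : Type*} [CommGroup V] [Finite V] (V₀ : Subgroup V)
    (X : Subgroup (MulAut V))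
    (hfix : ∀ ξ ∈ X, ξ ≠ 1 → ∀ v, ξ v = v → v ∈ V₀) (h0 : ∀ ξ ∈ X, ∀ v ∈ V₀, ξ v = v)
    (r t : ℕ) [Fact r.Prime] [Fact t.Prime] (hrt : r ≠ t)
    (hr : r ∣ Nat.card X) (ht : t ∣ Nat.card X)
    (v₁ : V) (hv₁ : v₁ ∉ V₀) (hv₁r : ∃ k : ℕ, v₁ ^ (r ^ k) = 1)
    (v₂ : V) (hv₂ : v₂ ∉ V₀) (hv₂t : ∃ k : ℕ, v₂ ^ (t ^ k) = 1) : False := by
  classical
  have hrp : r.Prime := Fact.out
  have htp : t.Prime := Fact.out
  have hmapfix : ∀ Q : Subgroup X, ∀ ρ ∈ Q.map X.subtype, ρ ≠ 1 → ∀ v, ρ v = v → v ∈ V₀ := by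
    rintro Q _ ⟨r, _, rfl⟩ h1 v hv
    exact hfix r r.2 h1 v hv
  have hmap0 : ∀ Q : Subgroup X, ∀ ρ ∈ Q.map X.subtype, ∀ v ∈ V₀, ρ v = v := by
    rintro Q _ ⟨r, _, rfl⟩ v hv
    exact h0 r r.2 v hv
  have hmapne : ∀ Q : Subgroup X, Q ≠ ⊥ → Q.map X.subtype ≠ ⊥ := by
    intro Q hQ h
    exact hQ ((Subgroup.map_eq_bot_iff_of_injective Q X.subtype_injective).mp h)
  have hmapcard : ∀ Q : Subgroup X, Nat.card (Q.map X.subtype) = Nat.card Q := fun Q =>
    Subgroup.card_map_of_injective X.subtype_injective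
  by_cases hF : FrobCond r X
  · obtain ⟨K, hKn, hKc, k, hk⟩ := npc_iff_frobCond.mpr hF
    have hK : K ≠ ⊥ := by
      intro h
      have e := K.card_mul_index
      rw [h, Subgroup.card_bot, one_mul, Subgroup.index_bot] at e
      rw [h, Subgroup.index_bot] at hk
      rw [hk] at ht
      exact hrt ((Nat.prime_dvd_prime_iff_eq htp hrp).mp (htp.dvd_of_dvd_pow ht)).symm
    obtain ⟨ξ, hξ⟩ := exists_prime_orderOf_dvd_card' r hr
    have hξ1 : ξ ≠ 1 := by
      intro h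
      rw [h, orderOf_one] at hξ
      exact hrp.one_lt.ne hξ
    apply semireg_star V₀ r (ξ : MulAut V) (K.map X.subtype) ?_ ?_
      (hmapfix K) (hmap0 K) (hmapne K hK) ?_ ?_ v₁ hv₁ hv₁r
    · have := pow_orderOf_eq_one ξ
      rw [hξ] at this
      exact congrArg Subtype.val this
    · apply hfix _ ξ.2
      intro h
      exact hξ1 (Subtype.ext h)
    · rw [hmapcard]; exact hKc
    · rintro _ ⟨r, hr, rfl⟩
      exact ⟨ξ * r * ξ⁻¹, hKn.conj_mem r hr ξ, rfl⟩
  · unfold FrobCond at hF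
    push Not at hF
    obtain ⟨Q, hQ, g, hg, hgo, hgC⟩ := hF
    have hg1 : g ≠ 1 := by
      intro h
      exact hgC (h ▸ Subgroup.one_mem _)
    have hQ1 : Q ≠ ⊥ := by
      intro h
      apply hgC
      rw [h, Subgroup.mem_centralizer_iff]
      intro x hx
      have : x = 1 := Subgroup.mem_bot.mp hx
      rw [this]; simp
    have ho1 : orderOf g ≠ 1 := by rwa [Ne, orderOf_eq_one_iff]
    have hu : (orderOf g).minFac.Prime := Nat.minFac_prime ho1
    set u := (orderOf g).minFac with hudef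
    have hug : u ∣ orderOf g := Nat.minFac_dvd _
    have hur : u ≠ r := by
      intro h
      have : r ∣ Nat.gcd (orderOf g) r := Nat.dvd_gcd (h ▸ hug) dvd_rfl
      rw [hgo] at this
      exact hrp.one_lt.ne' (Nat.dvd_one.mp this)
    set τ : X := g ^ (orderOf g / u) with hτdef
    have hτo : orderOf τ = u := orderOf_pow_orderOf_div (orderOf_pos g).ne' hug
    have hτ1 : τ ≠ 1 := by
      intro h
      rw [h, orderOf_one] at hτo
      exact hu.one_lt.ne hτo
    have hτn : τ ∈ Subgroup.normalizer (Q : Set X) := Subgroup.pow_mem _ hg _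
    have hnormX : ∀ ρ ∈ Q, τ * ρ * τ⁻¹ ∈ Q := fun ρ hρ =>
      (Subgroup.mem_normalizer_iff.mp hτn ρ).mp hρ
    -- no nontrivial element of `Q` commutes with `τ`
    have hfpfX : ∀ ρ ∈ Q, τ * ρ * τ⁻¹ = ρ → ρ = 1 := by
      intro ρ hρ hc
      by_contra hρ1
      have hcomm : Commute τ ρ := by
        have : τ * ρ = τ * ρ * τ⁻¹ * τ := by group
        rw [hc] at this
        exact this
      obtain ⟨k, hk⟩ := (IsPGroup.iff_orderOf.mp hQ) ⟨ρ, hρ⟩
      rw [Subgroup.orderOf_mk] at hk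
      have hk0 : k ≠ 0 := by
        rintro rfl
        rw [pow_zero, orderOf_eq_one_iff] at hk
        exact hρ1 hk
      have hrρ : r ∣ orderOf ρ := by rw [hk]; exact dvd_pow_self r hk0
      set ξ : X := ρ ^ (orderOf ρ / r) with hξdef
      have hξo : orderOf ξ = r := orderOf_pow_orderOf_div (orderOf_pos ρ).ne' hrρ
      have hξ1 : ξ ≠ 1 := by
        intro h
        rw [h, orderOf_one] at hξo
        exact hrp.one_lt.ne hξo
      have hcξ : Commute τ ξ := hcomm.pow_right _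
      apply semireg_star V₀ r (ξ : MulAut V) ((Subgroup.zpowers τ).map X.subtype) ?_ ?_
        (hmapfix _) (hmap0 _) (hmapne _ ?_) ?_ ?_ v₁ hv₁ hv₁r
      · have := pow_orderOf_eq_one ξ
        rw [hξo] at this
        exact congrArg Subtype.val this
      · apply hfix _ ξ.2
        intro h
        exact hξ1 (Subtype.ext h)
      · intro h
        rw [Subgroup.zpowers_eq_bot] at h
        exact hτ1 h
      · rw [hmapcard, Nat.card_zpowers, hτo]
        exact (Nat.coprime_primes hu hrp).mpr hur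
      · rintro _ ⟨w, hw, rfl⟩
        refine ⟨ξ * w * ξ⁻¹, ?_, rfl⟩
        obtain ⟨j, rfl⟩ := Subgroup.mem_zpowers_iff.mp hw
        have : Commute ξ (τ ^ j) := (hcξ.symm).zpow_right j
        rw [this.eq, mul_inv_cancel_right]
        exact Subgroup.zpow_mem_zpowers τ j
    apply frob_norm V₀ (Q.map X.subtype) (τ : MulAut V) u t hu ?_ ?_ ?_ (hmapne Q hQ1) ?_ ?_
      v₂ hv₂ hv₂t
    · rw [Subgroup.orderOf_coe, hτo]
    · rintro _ ⟨ρ, hρ, rfl⟩
      exact ⟨τ * ρ * τ⁻¹, hnormX ρ hρ, rfl⟩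
    · rintro _ ⟨ρ, hρ, rfl⟩ hc
      have : τ * ρ * τ⁻¹ = ρ := Subtype.ext hc
      rw [hfpfX ρ hρ this]; rfl
    · intro ξ hξ
      apply hfix ξ
      have hle : Q.map X.subtype ⊔ Subgroup.zpowers (τ : MulAut V) ≤ X := by
        apply sup_le
        · rintro _ ⟨ρ, _, rfl⟩; exact ρ.2
        · rw [Subgroup.zpowers_le]; exact τ.2
      exact hle hξ
    · rw [hmapcard]
      obtain ⟨j, hj⟩ := (IsPGroup.iff_card).mp hQ
      rw [hj]
      exact Nat.Coprime.pow_left j ((Nat.coprime_primes hrp htp).mpr hrt)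

end Cfsg.Agent.Lib.Helper24.Itn
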