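import Mathlib
import Cfsg.Agent.Lib.Helper73.TwoClass
import Cfsg.Agent.Lib.Helper24.Itn.Defs
import Cfsg.Agent.Lib.Helper24.Itn.LX

set_option autoImplicit false

namespace Cfsg.Agent.Lib.Helper24.Itn

open Cfsg.Agent.Lib.Helper73 Cfsg.Agent.Lib.Helper77 Cfsg.Agent.Lib.Helper58 Cfsg.Agent.Lib.Helper31

local notation "Cn" x => Subgroup.centralizer ({x} : Set _)

/-- ACT -/
theorem act {G : Type*} [Group G] [Finite G] {N : Subgroup G} [N.Normal] (hF : FRel N)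
    (C : Subgroup G) (hC : ∀ d ∈ C ⊓ N, C ≤ (Cn d)) (r t : ℕ) [Fact r.Prime] [Fact t.Prime]
    (hrt : r ≠ t) (a b : G) (haN : a ∈ N) (hbN : b ∈ N) (ha : a ∉ Subgroup.center G)
    (hb : b ∉ Subgroup.center G) (haC : (Cn a) = C) (hbC : (Cn b) = C)
    (har : ∃ k : ℕ, orderOf a = r ^ k) (hbt : ∃ k : ℕ, orderOf b = t ^ k)
    (g₁ g₂ : G) (hg₁ : g₁ ∈ Subgroup.normalizer ((C ⊓ N : Subgroup G) : Set G))
    (hg₂ : g₂ ∈ Subgroup.normalizer ((C ⊓ N : Subgroup G) : Set G)) (hg₁C : g₁ ∉ C)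
    (hg₂C : g₂ ∉ C) (hg₁r : ∃ k : ℕ, g₁ ^ (r ^ k) = 1) (hg₂t : ∃ k : ℕ, g₂ ^ (t ^ k) = 1) :
    False := by
  classical
  have hr : r.Prime := Fact.out
  have ht : t.Prime := Fact.out
  let D : Subgroup G := C ⊓ N
  have haD : a ∈ D := ⟨by rw [← haC]; exact mem_cn.mpr rfl, haN⟩
  have hbD : b ∈ D := ⟨by rw [← hbC]; exact mem_cn.mpr rfl, hbN⟩
  have hab : ∀ u ∈ D, ∀ v ∈ D, u * v = v * u := by
    intro u hu v hv
    exact mem_cn.mp (hC v hv hu.1)
  let _ : CommGroup D := { (inferInstance : Group D) with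
    mul_comm := fun a b => Subtype.ext (hab a a.2 b b.2) }
  let φ := D.normalizerMonoidHom
  have hφ : ∀ (g : Subgroup.normalizer (D : Set G)) (c : D), ((φ g) c : G) = g * c * (g : G)⁻¹ :=
    fun g c => rfl
  let V₀ : Subgroup D := (Subgroup.center G).subgroupOf D
  have hφ1 : ∀ g : Subgroup.normalizer (D : Set G), (g : G) ∈ C → φ g = 1 := by
    intro g hg
    ext c
    rw [hφ, mem_cn.mp (hC c c.2 hg)]; simp
  have hfix : ∀ ξ ∈ φ.range, ξ ≠ 1 → ∀ v, ξ v = v → v ∈ V₀ := by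
    rintro _ ⟨g, rfl⟩ hne v hv
    by_contra hv0
    have hvc : (v : G) ∉ Subgroup.center G := hv0
    apply hne
    apply hφ1
    have e : (Cn (v : G)) ≤ (Cn a) := hF a v haN v.2.2 hvc (by rw [haC]; exact hC v v.2)
    rw [← haC]
    apply e
    rw [mem_cn]
    have := congrArg Subtype.val hv
    rw [hφ] at this
    calc (g : G) * v = g * v * (g : G)⁻¹ * g := by group
      _ = v * g := by rw [this]
  have h0 : ∀ ξ ∈ φ.range, ∀ v ∈ V₀, ξ v = v := by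
    rintro _ ⟨g, rfl⟩ v hv
    apply Subtype.ext
    rw [hφ]
    have hvc : (v : G) ∈ Subgroup.center G := hv
    rw [(Subgroup.mem_center_iff.mp hvc) g]; simp
  have hdvdX : ∀ (s : ℕ), s.Prime → ∀ g ∈ Subgroup.normalizer (D : Set G), g ∉ C →
      (∃ k : ℕ, g ^ (s ^ k) = 1) → s ∣ Nat.card φ.range := by
    intro s hs g hgn hgC hgs
    obtain ⟨k, hk⟩ := hgs
    have hne : φ ⟨g, hgn⟩ ≠ 1 := by
      intro h1
      apply hgC
      rw [← haC, mem_cn]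
      have := congrArg (fun f : MulAut D => ((f ⟨a, haD⟩ : D) : G)) h1
      simp only [hφ] at this
      change g * a * g⁻¹ = a at this
      calc g * a = g * a * g⁻¹ * g := by group
        _ = a * g := by rw [this]
    have hpow : (φ ⟨g, hgn⟩) ^ (s ^ k) = 1 := by
      rw [← map_pow]
      have : (⟨g, hgn⟩ : Subgroup.normalizer (D : Set G)) ^ (s ^ k) = 1 := Subtype.ext hk
      rw [this, map_one]
    obtain ⟨j, _, hj⟩ := (Nat.dvd_prime_pow hs).mp (orderOf_dvd_of_pow_eq_one hpow)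
    have hj0 : j ≠ 0 := by
      rintro rfl
      rw [pow_zero, orderOf_eq_one_iff] at hj
      exact hne hj
    have d1 : s ∣ orderOf (φ ⟨g, hgn⟩) := by rw [hj]; exact dvd_pow_self s hj0
    have hmem : φ ⟨g, hgn⟩ ∈ φ.range := MonoidHom.mem_range.mpr ⟨_, rfl⟩
    have d2 : orderOf (⟨φ ⟨g, hgn⟩, hmem⟩ : φ.range) ∣ Nat.card φ.range := orderOf_dvd_natCard _
    rw [Subgroup.orderOf_mk] at d2
    exact d1.trans d2
  have hrX := hdvdX r hr g₁ hg₁ hg₁C hg₁r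
  have htX := hdvdX t ht g₂ hg₂ hg₂C hg₂t
  obtain ⟨ka, hka⟩ := har
  obtain ⟨kb, hkb⟩ := hbt
  refine semireg_two_primes V₀ φ.range hfix h0 r t hrt hrX htX ⟨a, haD⟩ ha ⟨ka, ?_⟩
    ⟨b, hbD⟩ hb ⟨kb, ?_⟩
  · apply Subtype.ext
    change a ^ (r ^ ka) = 1
    rw [← hka]; exact pow_orderOf_eq_one a
  · apply Subtype.ext
    change b ^ (t ^ kb) = 1
    rw [← hkb]; exact pow_orderOf_eq_one b

end Cfsg.Agent.Lib.Helper24.Itn
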