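import Mathlib
import Cfsg.Agent.Lib.Helper73.TwoClass
import Cfsg.Agent.Lib.Helper24.Itn.Defs

set_option autoImplicit false

namespace Cfsg.Agent.Lib.Helper24.Itn

open Cfsg.Agent.Lib.Helper73 Cfsg.Agent.Lib.Helper77 Cfsg.Agent.Lib.Helper58 Cfsg.Agent.Lib.Helper31

local notation "Cn" x => Subgroup.centralizer ({x} : Set _)

/-- `|N : H ∩ N|` divides `|G : H|` for `N` normal -/
theorem relIndex_dvd_index_of_normal_right {G : Type*} [Group G] [Finite G] (H N : Subgroup G)
    [N.Normal] : H.relIndex N ∣ H.index := by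
  obtain ⟨k, hk⟩ := Subgroup.relIndex_dvd_index_of_normal N H
  -- cards
  have e1 : Nat.card (H ⊓ N : Subgroup G) * H.relIndex N = Nat.card N := by
    have := (H.subgroupOf N).card_mul_index
    rw [Nat.card_congr (Subgroup.subgroupOfEquivOfLe (inf_le_right : H ⊓ N ≤ N)).toEquiv.symm,
      Subgroup.inf_subgroupOf_right]
    exact this
  have e2 : Nat.card (H ⊓ N : Subgroup G) * N.relIndex H = Nat.card H := by
    have := (N.subgroupOf H).card_mul_index
    rw [Nat.card_congr (Subgroup.subgroupOfEquivOfLe (inf_le_left : H ⊓ N ≤ H)).toEquiv.symm,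
      Subgroup.inf_subgroupOf_left]
    exact this
  have e3 := N.card_mul_index
  have e4 := H.card_mul_index
  refine ⟨k, ?_⟩
  have hpos : 0 < Nat.card (H ⊓ N : Subgroup G) * N.relIndex H := by rw [e2]; exact Nat.card_pos
  apply Nat.eq_of_mul_eq_mul_left hpos
  calc Nat.card (H ⊓ N : Subgroup G) * N.relIndex H * H.index = Nat.card G := by rw [e2, e4]
    _ = Nat.card (H ⊓ N : Subgroup G) * H.relIndex N * (N.relIndex H * k) := by
        rw [← e3, ← e1, hk]
    _ = _ := by ring

/-- CEN -/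
theorem cen {G : Type*} [Group G] [Finite G] (N : Subgroup G) [N.Normal] (t : ℕ) [Fact t.Prime]
    (h : ∀ x ∈ N, ¬ t ∣ (Cn x).index) (x : G) (hx : x ∈ N) (hxt : ∃ k : ℕ, orderOf x = t ^ k) :
    ∀ y ∈ N, x * y = y * x := by
  have hN : ∀ z : N, ¬ t ∣ (Cn z).index := by
    intro z hz
    apply h z z.2
    have e : (Cn z) = (Cn (z : G)).subgroupOf N := by
      ext w
      rw [mem_cn, Subgroup.mem_subgroupOf, mem_cn]
      constructor
      · intro hw; exact congrArg Subtype.val hw
      · intro hw; exact Subtype.ext hw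
    rw [e] at hz
    exact hz.trans (relIndex_dvd_index_of_normal_right _ N)
  obtain ⟨k, hk⟩ := hxt
  have hxp : IsPGroup t (Subgroup.zpowers (⟨x, hx⟩ : N)) :=
    IsPGroup.of_card (n := k) (by rw [Nat.card_zpowers, Subgroup.orderOf_mk, hk])
  obtain ⟨S, hS⟩ := hxp.exists_le_sylow
  have hxZ := sylow_le_center_of_not_dvd t hN S (hS (Subgroup.mem_zpowers _))
  intro y hy
  have := (Subgroup.mem_center_iff.mp hxZ) ⟨y, hy⟩
  exact (congrArg Subtype.val this).symm

end Cfsg.Agent.Lib.Helper24.Itn
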