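import Mathlib
import Cfsg.Agent.Lib.Helper73.TwoClass
import Cfsg.Agent.Lib.Helper24.Itn.Defs

set_option autoImplicit false

namespace Cfsg.Agent.Lib.Helper24.Itn

open Cfsg.Agent.Lib.Helper73 Cfsg.Agent.Lib.Helper77 Cfsg.Agent.Lib.Helper58 Cfsg.Agent.Lib.Helper31

local notation "Cn" x => Subgroup.centralizer ({x} : Set _)

/-- REL1 -/
theorem frel_of_two {G : Type*} [Group G] [Finite G] (N : Subgroup G) (m : ℕ)
    (h : ∀ x ∈ N, (Cn x).index = 1 ∨ (Cn x).index = m) : FRel N := by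
  intro a b haN hbN hb hab
  have hb1 : (Cn b).index ≠ 1 := by
    intro h1
    rw [Subgroup.index_eq_one] at h1
    apply hb
    rw [Subgroup.mem_center_iff]
    intro g
    have : g ∈ (Cn b) := by rw [h1]; trivial
    exact mem_cn.mp this
  have hbn : (Cn b).index = m := (h b hbN).resolve_left hb1
  have hdvd : (Cn b).index ∣ (Cn a).index := Subgroup.index_dvd_of_le hab
  have han : (Cn a).index = m := by
    rcases h a haN with h1 | h1
    · rw [h1] at hdvd
      exact absurd (Nat.dvd_one.mp hdvd) hb1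
    · exact h1
  have hm0 : m ≠ 0 := by rw [← hbn]; exact Subgroup.index_ne_zero_of_finite
  have hcard : Nat.card (Cn b) ≤ Nat.card (Cn a) := by
    have e1 := Subgroup.card_mul_index (Cn a)
    have e2 := Subgroup.card_mul_index (Cn b)
    rw [han] at e1
    rw [hbn] at e2
    have : Nat.card (Cn b) * m = Nat.card (Cn a) * m := by rw [e1, e2]
    exact (Nat.eq_of_mul_eq_mul_right (by omega) this).le
  exact (Subgroup.eq_of_le_of_card_ge hab hcard).ge

/-- REL2 -/
theorem FRel.cn_le_of_coprime {G : Type*} [Group G] {N : Subgroup G} (hF : FRel N) (x y : G)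
    (hxN : x ∈ N) (hyN : y ∈ N)
    (hx : x ∉ Subgroup.center G) (hxy : Commute x y) (hc : (orderOf x).Coprime (orderOf y)) :
    (Cn x) ≤ (Cn y) := by
  obtain ⟨k, k', hk1, hk2, hk1', hk2'⟩ := exists_pi_exponents (orderOf x) (orderOf y) hc
  have e1 : (x * y) ^ k = x := by
    rw [hxy.mul_pow]
    have a1 : x ^ k = x ^ 1 := pow_eq_pow_iff_modEq.mpr hk1
    have a2 : y ^ k = y ^ 0 := pow_eq_pow_iff_modEq.mpr hk2
    rw [a1, a2]; simp
  have e2 : (x * y) ^ k' = y := by
    rw [hxy.mul_pow]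
    have a1 : x ^ k' = x ^ 0 := pow_eq_pow_iff_modEq.mpr hk1'
    have a2 : y ^ k' = y ^ 1 := pow_eq_pow_iff_modEq.mpr hk2'
    rw [a1, a2]; simp
  have h1 : (Cn (x * y)) ≤ (Cn x) := by
    have := cn_le_cn_pow (x * y) k
    rwa [e1] at this
  have h2 : (Cn (x * y)) ≤ (Cn y) := by
    have := cn_le_cn_pow (x * y) k'
    rwa [e2] at this
  exact (hF _ _ (N.mul_mem hxN hyN) hxN hx h1).trans h2

end Cfsg.Agent.Lib.Helper24.Itn
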