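import Mathlib
import Cfsg.Agent.Lib.Helper73.TwoClass
import Cfsg.Agent.Lib.Helper24.Itn.Defs
import Cfsg.Agent.Lib.Helper24.Itn.REL

set_option autoImplicit false

namespace Cfsg.Agent.Lib.Helper24.Itn

open Cfsg.Agent.Lib.Helper73 Cfsg.Agent.Lib.Helper77 Cfsg.Agent.Lib.Helper58 Cfsg.Agent.Lib.Helper31

local notation "Cn" x => Subgroup.centralizer ({x} : Set _)

/-- CONF -/
theorem conf {G : Type*} [Group G] [Finite G] {N : Subgroup G} (hF : FRel N) (r t : ℕ)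
    [Fact r.Prime] [Fact t.Prime] (hrt : r ≠ t)
    (hrN : ∀ g : G, (∃ k : ℕ, orderOf g = r ^ k) → g ∈ N)
    (a b : G) (haN : a ∈ N) (hbN : b ∈ N) (ha : a ∉ Subgroup.center G)
    (hb : b ∉ Subgroup.center G) (har : ∃ k : ℕ, orderOf a = r ^ k)
    (hbt : ∃ k : ℕ, orderOf b = t ^ k) (hcard : Nat.card (Cn b) = Nat.card (Cn a)) :
    ∃ a' : G, a' ∈ N ∧ a' ∉ Subgroup.center G ∧ (∃ k : ℕ, orderOf a' = r ^ k) ∧
      (Cn a') = (Cn b) ∧ ∀ d ∈ (Cn b) ⊓ N, (Cn b) ≤ (Cn d) := by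
  have hr : r.Prime := Fact.out
  have ht : t.Prime := Fact.out
  have hrt' : r.Coprime t := (Nat.coprime_primes hr ht).mpr hrt
  obtain ⟨a', ha'C, ha', ha'r⟩ := exists_noncentral_elt b a hcard r ha har
  have ha'N : a' ∈ N := hrN a' ha'r
  obtain ⟨ka, hka⟩ := ha'r
  obtain ⟨kb, hkb⟩ := hbt
  have hcomm : Commute a' b := mem_cn.mp ha'C
  have h1 : (Cn a') ≤ (Cn b) := hF.cn_le_of_coprime a' b ha'N hbN ha' hcomm (by
    rw [hka, hkb]; exact Nat.Coprime.pow _ _ hrt')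
  have h2 : (Cn b) ≤ (Cn a') := hF.cn_le_of_coprime b a' hbN ha'N hb hcomm.symm (by
    rw [hka, hkb]; exact Nat.Coprime.pow _ _ hrt'.symm)
  refine ⟨a', ha'N, ha', ⟨ka, hka⟩, le_antisymm h1 h2, ?_⟩
  rintro d ⟨hdC, hdN⟩
  obtain ⟨d₁, hd₁, d₂, hd₂, hd, ⟨k₁, hk₁⟩, hd₂c⟩ :=
    exists_prime_decomp r d (isOfFinOrder_of_finite d)
  have hzN : Subgroup.zpowers d ≤ N := by rw [Subgroup.zpowers_le]; exact hdN
  have hbd : b ∈ (Cn d) := by rw [mem_cn]; exact (mem_cn.mp hdC).symm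
  have hbd₁ : Commute b d₁ := mem_cn.mp (cn_le_cn_of_mem_zpowers d d₁ hd₁ hbd)
  have ha'd : a' ∈ (Cn d) := by rw [mem_cn]; exact (mem_cn.mp (h2 hdC)).symm
  have ha'd₂ : Commute a' d₂ := mem_cn.mp (cn_le_cn_of_mem_zpowers d d₂ hd₂ ha'd)
  have e1 : (Cn b) ≤ (Cn d₁) := hF.cn_le_of_coprime b d₁ hbN (hzN hd₁) hb hbd₁ (by
    rw [hkb, hk₁]; exact Nat.Coprime.pow _ _ hrt'.symm)
  have e2 : (Cn a') ≤ (Cn d₂) := hF.cn_le_of_coprime a' d₂ ha'N (hzN hd₂) ha' ha'd₂ (by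
    rw [hka]; exact Nat.Coprime.pow_left _ hd₂c.symm)
  intro g hg
  have g1 := mem_cn.mp (e1 hg)
  have g2 := mem_cn.mp (e2 (h2 hg))
  rw [mem_cn, hd, ← mul_assoc, g1, mul_assoc, g2, mul_assoc]

/-- NORM -/
theorem norm {G : Type*} [Group G] [Finite G] {N : Subgroup G} [N.Normal] (hF : FRel N)
    (C : Subgroup G) (hC : ∀ d ∈ C ⊓ N, C ≤ (Cn d)) (s : ℕ) [Fact s.Prime] (hs : s ∣ C.index)
    (y : G) (hyN : y ∈ N) (hy : y ∉ Subgroup.center G) (hyC : (Cn y) = C)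
    (hys : ∃ k : ℕ, orderOf y = s ^ k) :
    ∃ g ∈ Subgroup.normalizer ((C ⊓ N : Subgroup G) : Set G), g ∉ C ∧ ∃ k : ℕ, g ^ (s ^ k) = 1 := by
  have hyp : IsPGroup s (Subgroup.zpowers y) := by
    obtain ⟨k, hk⟩ := hys
    exact IsPGroup.of_card (n := k) (by rw [Nat.card_zpowers, hk])
  obtain ⟨S, hS⟩ := hyp.exists_le_sylow
  have hyS : y ∈ (S : Subgroup G) := hS (Subgroup.mem_zpowers y)
  have hyCm : y ∈ C := by rw [← hyC]; exact mem_cn.mpr rfl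
  have hlt : (S : Subgroup G) ⊓ C < (S : Subgroup G) := by
    apply lt_of_le_of_ne inf_le_left
    intro h
    have hle : (S : Subgroup G) ≤ C := inf_eq_left.mp h
    exact S.not_dvd_index (hs.trans (Subgroup.index_dvd_of_le hle))
  obtain ⟨g, hgS, hgn, hgD⟩ := exists_normalizer_notMem (S : Subgroup G) S.2 _ hlt
  have hgC : g ∉ C := fun h => hgD ⟨hgS, h⟩
  refine ⟨g, ?_, hgC, ?_⟩
  · have hyD : y ∈ (S : Subgroup G) ⊓ C := ⟨hyS, hyCm⟩
    have hconj : g * y * g⁻¹ ∈ (S : Subgroup G) ⊓ C :=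
      (Subgroup.mem_normalizer_iff.mp hgn y).mp hyD
    have hconjN : g * y * g⁻¹ ∈ N := (inferInstance : N.Normal).conj_mem y hyN g
    have hnc : g * y * g⁻¹ ∉ Subgroup.center G := by rwa [conj_mem_center_iff]
    have e2 : (Cn (g * y * g⁻¹)) = C := by
      apply le_antisymm
      · have := hF y (g * y * g⁻¹) hyN hconjN hnc (by rw [hyC]; exact hC _ ⟨hconj.2, hconjN⟩)
        rwa [hyC] at this
      · exact hC _ ⟨hconj.2, hconjN⟩
    rw [Subgroup.mem_normalizer_iff]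
    intro c
    have h1 := conj_mem_cn_conj g c y
    rw [hyC, e2] at h1
    have h2 : c ∈ N ↔ g * c * g⁻¹ ∈ N := by
      constructor
      · intro h; exact (inferInstance : N.Normal).conj_mem c h g
      · intro h
        have := (inferInstance : N.Normal).conj_mem _ h g⁻¹
        simpa [mul_assoc] using this
    constructor
    · rintro ⟨hc1, hc2⟩
      exact ⟨h1.mpr hc1, h2.mp hc2⟩
    · rintro ⟨hc1, hc2⟩
      exact ⟨h1.mp hc1, h2.mpr hc2⟩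
  · obtain ⟨k, hk⟩ := S.2 ⟨g, hgS⟩
    exact ⟨k, congrArg Subtype.val hk⟩

end Cfsg.Agent.Lib.Helper24.Itn
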