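import Mathlib
import Cfsg.Agent.Lib.Helper73.TwoClass
import Cfsg.Agent.Lib.Helper24.Itn.Defs

set_option autoImplicit false

namespace Cfsg.Agent.Lib.Helper24.Itn

open Cfsg.Agent.Lib.Helper73 Cfsg.Agent.Lib.Helper77 Cfsg.Agent.Lib.Helper58 Cfsg.Agent.Lib.Helper31

local notation "Cn" x => Subgroup.centralizer ({x} : Set _)

/-- NIL : if all `r'`-elements of prime power order of `N` are central in `N`, `N` is nilpotent -/
theorem nil {G : Type*} [Group G] [Finite G] (N : Subgroup G) (r : ℕ) [Fact r.Prime]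
    (h : ∀ (t : ℕ), t.Prime → t ≠ r → ∀ x ∈ N, (∃ k : ℕ, orderOf x = t ^ k) →
      ∀ y ∈ N, x * y = y * x) : Group.IsNilpotent N := by
  have hr : r.Prime := Fact.out
  have hcard : Nat.card (N ⧸ Subgroup.center N) =
      r ^ (Nat.card (N ⧸ Subgroup.center N)).primeFactorsList.length := by
    apply Nat.eq_prime_pow_of_unique_prime_dvd Nat.card_pos.ne'
    intro t ht htd
    by_contra htr
    have := Fact.mk ht
    obtain ⟨q, hq⟩ := exists_prime_orderOf_dvd_card' t htd
    obtain ⟨x, rfl⟩ := QuotientGroup.mk_surjective q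
    obtain ⟨x₁, hx₁, x₂, hx₂, hx, ⟨k, hk⟩, hc⟩ := exists_prime_decomp t x (isOfFinOrder_of_finite x)
    have hx₁Z : x₁ ∈ Subgroup.center N := by
      rw [Subgroup.mem_center_iff]
      intro y
      apply Subtype.ext
      have := h t ht htr (x₁ : G) x₁.2 ⟨k, by rw [Subgroup.orderOf_coe, hk]⟩ (y : G) y.2
      exact this.symm
    have e : (QuotientGroup.mk x : N ⧸ Subgroup.center N) = QuotientGroup.mk x₂ := by
      rw [hx, QuotientGroup.mk_mul, (QuotientGroup.eq_one_iff x₁).mpr hx₁Z, one_mul]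
    have d : orderOf (QuotientGroup.mk x₂ : N ⧸ Subgroup.center N) ∣ orderOf x₂ :=
      orderOf_map_dvd (QuotientGroup.mk' (Subgroup.center N)) x₂
    rw [← e, hq] at d
    have : t ∣ Nat.gcd (orderOf x₂) t := Nat.dvd_gcd d dvd_rfl
    rw [hc] at this
    exact ht.one_lt.ne' (Nat.dvd_one.mp this)
  have hP : IsPGroup r (N ⧸ Subgroup.center N) := IsPGroup.of_card hcard
  have : Group.IsNilpotent (N ⧸ Subgroup.center N) := hP.isNilpotent
  exact Group.of_quotient_center_nilpotent this

end Cfsg.Agent.Lib.Helper24.Itn
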