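import Mathlib
import Cfsg.Agent.Lib.Helper73.TwoClass
import Cfsg.Agent.Lib.Helper24.Itn.Defs
import Cfsg.Agent.Lib.Helper24.Itn.REL
import Cfsg.Agent.Lib.Helper24.Itn.CONF
import Cfsg.Agent.Lib.Helper24.Itn.CEN
import Cfsg.Agent.Lib.Helper24.Itn.NIL
import Cfsg.Agent.Lib.Helper24.Itn.ACT

set_option autoImplicit false

namespace Cfsg.Agent.Lib.Helper24.Itn

open Cfsg.Agent.Lib.Helper73 Cfsg.Agent.Lib.Helper77 Cfsg.Agent.Lib.Helper58 Cfsg.Agent.Lib.Helper31

local notation "Cn" x => Subgroup.centralizer ({x} : Set _)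

/-- MAIN -/
theorem main {G : Type*} [Group G] [Finite G] (r : ℕ) [Fact r.Prime]
    (R : Sylow r G) (hR : ¬ (R : Subgroup G) ≤ Subgroup.center G) (N : Subgroup G) [N.Normal]
    (hRN : (R : Subgroup G) ≤ N) (m : ℕ)
    (h : ∀ x ∈ N, (Cn x).index = 1 ∨ (Cn x).index = m) : Group.IsNilpotent N := by
  classical
  have hr : r.Prime := Fact.out
  have hF : FRel N := frel_of_two N m h
  obtain ⟨a, haR, ha⟩ := SetLike.not_le_iff_exists.mp hR
  have haN : a ∈ N := hRN haR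
  have har : ∃ k : ℕ, orderOf a = r ^ k := by
    obtain ⟨k, hk⟩ := (IsPGroup.iff_orderOf.mp R.2) ⟨a, haR⟩
    exact ⟨k, by rw [← hk, Subgroup.orderOf_mk]⟩
  have hidx : ∀ z ∈ N, z ∉ Subgroup.center G → (Cn z).index = m := by
    intro z hzN hz
    refine (h z hzN).resolve_left ?_
    intro h1
    rw [Subgroup.index_eq_one] at h1
    apply hz
    rw [Subgroup.mem_center_iff]
    intro g
    have : g ∈ (Cn z) := by rw [h1]; trivial
    exact mem_cn.mp this
  have hm0 : m ≠ 0 := by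
    rw [← hidx a haN ha]; exact Subgroup.index_ne_zero_of_finite
  have hcard : ∀ z z' : G, z ∈ N → z' ∈ N → z ∉ Subgroup.center G → z' ∉ Subgroup.center G →
      Nat.card (Cn z) = Nat.card (Cn z') := by
    intro z z' hzN hzN' hz hz'
    have e1 := Subgroup.card_mul_index (Cn z)
    have e2 := Subgroup.card_mul_index (Cn z')
    rw [hidx z hzN hz] at e1
    rw [hidx z' hzN' hz'] at e2
    exact Nat.eq_of_mul_eq_mul_right (by omega) (e1.trans e2.symm)
  have hrN : ∀ g : G, (∃ k : ℕ, orderOf g = r ^ k) → g ∈ N := by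
    rintro g ⟨k, hk⟩
    have hgp : IsPGroup r (Subgroup.zpowers g) :=
      IsPGroup.of_card (n := k) (by rw [Nat.card_zpowers, hk])
    obtain ⟨S, hS⟩ := hgp.exists_le_sylow
    obtain ⟨c, hc⟩ := MulAction.exists_smul_eq G R S
    have hgS : g ∈ (S : Subgroup G) := hS (Subgroup.mem_zpowers g)
    rw [← hc, Sylow.coe_subgroup_smul, Subgroup.mem_pointwise_smul_iff_inv_smul_mem] at hgS
    have h1 : (MulAut.conj c)⁻¹ • g ∈ N := hRN hgS
    have h2 : (MulAut.conj c)⁻¹ • g = c⁻¹ * g * c := by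
      rw [← map_inv, MulAut.smul_def, MulAut.conj_apply, inv_inv]
    rw [h2] at h1
    have h3 := (inferInstance : N.Normal).conj_mem _ h1 c
    have h4 : c * (c⁻¹ * g * c) * c⁻¹ = g := by group
    rwa [h4] at h3
  have hnd : ∀ t : ℕ, ¬ t ∣ m → t.Prime → ∀ x ∈ N, ¬ t ∣ (Cn x).index := by
    intro t htm ht x hx
    rcases h x hx with h1 | h1
    · rw [h1]; exact ht.one_lt.ne' ∘ Nat.dvd_one.mp
    · rw [h1]; exact htm
  apply nil N r
  intro t ht htr x hxN hxt y hyN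
  have := Fact.mk ht
  by_cases htm : t ∣ m
  swap
  · exact cen N t (hnd t htm ht) x hxN hxt y hyN
  by_cases hx : x ∈ Subgroup.center G
  · exact ((Subgroup.mem_center_iff.mp hx) y).symm
  by_cases hrm : r ∣ m
  · exfalso
    obtain ⟨a', ha'N, ha', ha'r, ha'C, hC⟩ := conf hF r t htr.symm hrN a x haN hxN ha hx har hxt
      (hcard x a hxN haN hx ha)
    obtain ⟨g₁, hg₁, hg₁C, hg₁r⟩ := norm hF (Cn x) hC r (by rw [hidx x hxN hx]; exact hrm)
      a' ha'N ha' ha'C ha'r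
    obtain ⟨g₂, hg₂, hg₂C, hg₂t⟩ := norm hF (Cn x) hC t (by rw [hidx x hxN hx]; exact htm)
      x hxN hx rfl hxt
    exact act hF (Cn x) hC r t htr.symm a' x ha'N hxN ha' hx ha'C rfl ha'r hxt g₁ g₂ hg₁ hg₂
      hg₁C hg₂C hg₁r hg₂t
  · -- `a` is central in `N`
    have haZ : ∀ y ∈ N, a * y = y * a := cen N r (hnd r hrm hr) a haN har
    have hle : (Cn a) ≤ (Cn x) := by
      obtain ⟨k, hk⟩ := har
      obtain ⟨k', hk'⟩ := hxt
      apply hF.cn_le_of_coprime a x haN hxN ha (haZ x hxN)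
      rw [hk, hk']
      exact Nat.Coprime.pow _ _ ((Nat.coprime_primes hr ht).mpr htr.symm)
    have : y ∈ (Cn x) := hle (mem_cn.mpr (haZ y hyN).symm)
    exact (mem_cn.mp this).symm

end Cfsg.Agent.Lib.Helper24.Itn
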